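import Cfsg.Prelude.Def_SylowChains
import Cfsg.Prelude.Def_SylowControl
import Cfsg.Agent.Lib.LocalChar.Core
import Cfsg.Agent.Lib.LocalFusion.ConjFamily

set_option autoImplicit false

namespace Cfsg.Agent.Lib.SylowChainControl

open Cfsg.Agent.Lib.LocalChar
open scoped Pointwise

variable {G : Type*} [Group G] [Finite G] {p : ℕ} [Fact p.Prime]

/-- One step of a chain of Sylow subgroups through the family. -/
def Step (p : ℕ) (𝓕 : Set (Subgroup G)) (D : Subgroup G) (a b : Sylow p G) : Prop :=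
  ∃ X ∈ 𝓕, IsSylowIn p ((a : Subgroup G) ⊓ X) X ∧ IsSylowIn p ((b : Subgroup G) ⊓ X) X ∧
    ∃ x ∈ X, cj x⁻¹ (b : Subgroup G) = (a : Subgroup G) ∧ D ≤ (b : Subgroup G) ⊓ X

/-- Chains of steps. -/
def Conn (p : ℕ) (𝓕 : Set (Subgroup G)) (D : Subgroup G) : Sylow p G → Sylow p G → Prop :=
  Relation.ReflTransGen (Step p 𝓕 D)

lemma Conn.mono {𝓕 : Set (Subgroup G)} {D D' : Subgroup G} {a b : Sylow p G} (hD : D' ≤ D)
    (h : Conn p 𝓕 D a b) : Conn p 𝓕 D' a b := by
  refine Relation.ReflTransGen.mono ?_ a b h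
  rintro a b ⟨X, hX, ha, hb, x, hx, he, hle⟩
  exact ⟨X, hX, ha, hb, x, hx, he, hD.trans hle⟩

lemma mem_sylowMembers {𝓕 : Set (Subgroup G)} {S X : Subgroup G} (hX : X ∈ 𝓕) (h : IsSylowIn p (S ⊓ X) X) :
    X ∈ Cfsg.sylowMembers p 𝓕 S :=
  ⟨hX, h.sylow, by rw [h.sylow_coe, Subgroup.map_subgroupOf_eq_of_le inf_le_right]⟩

lemma isSylowIn_of_mem_sylowMembers {𝓕 : Set (Subgroup G)} {S X : Subgroup G}
    (h : X ∈ Cfsg.sylowMembers p 𝓕 S) : IsSylowIn p (S ⊓ X) X := by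
  obtain ⟨-, P, hP⟩ := h
  rw [← hP]
  exact IsSylowIn.ofSylow P

/-- Chains give the data of `ControlsSylowIntersections`. -/
lemma Conn.toData {𝓕 : Set (Subgroup G)} {D : Subgroup G} {a b : Sylow p G} (h : Conn p 𝓕 D a b) :
    ∃ (n : ℕ) (c : Fin (n + 1) → Sylow p G) (X : Fin n → Subgroup G) (x : Fin n → G),
      c 0 = a ∧ c (Fin.last n) = b ∧
      ∀ i : Fin n,
        X i ∈ Cfsg.sylowMembers p 𝓕 (c i.castSucc : Subgroup G) ∧ X i ∈ Cfsg.sylowMembers p 𝓕 (c i.succ : Subgroup G) ∧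
        x i ∈ X i ∧ Cfsg.subgroupConjRight (x i) (c i.succ : Subgroup G) = (c i.castSucc : Subgroup G) ∧
        D ≤ (c i.succ : Subgroup G) ⊓ X i := by
  induction h using Relation.ReflTransGen.head_induction_on with
  | refl => exact ⟨0, fun _ => b, Fin.elim0, Fin.elim0, rfl, rfl, fun i => i.elim0⟩
  | head hs _ ih =>
    obtain ⟨n, c, X, x, h0, hl, hi⟩ := ih
    obtain ⟨X₀, hX₀, ha, hb, x₀, hx₀, he, hle⟩ := hs
    refine ⟨n + 1, Fin.cons _ c, Fin.cons X₀ X, Fin.cons x₀ x, rfl, ?_, ?_⟩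
    · rw [← Fin.succ_last, Fin.cons_succ]; exact hl
    · intro i
      induction i using Fin.cases with
      | zero =>
        simp only [Fin.castSucc_zero, Fin.cons_zero, Fin.cons_succ, h0]
        exact ⟨mem_sylowMembers hX₀ ha, mem_sylowMembers hX₀ hb, hx₀, he, hle⟩
      | succ j =>
        simp only [← Fin.succ_castSucc, Fin.cons_succ]
        exact hi j

lemma controls_of_conn {𝓕 : Set (Subgroup G)}
    (h : ∀ S T : Sylow p G, S ≠ T → (S : Subgroup G) ⊓ (T : Subgroup G) ≠ ⊥ →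
      Conn p 𝓕 ((S : Subgroup G) ⊓ (T : Subgroup G)) S T) : Cfsg.ControlsSylowIntersections p 𝓕 :=
  fun S T hne hne' => (h S T hne hne').toData

variable {f : Subgroup G → Set (Subgroup G)}

/-- A local step inside `M`. -/
def LStep (p : ℕ) (f : Subgroup G → Set (Subgroup G)) (M D A B : Subgroup G) : Prop :=
  ∃ P0 F : Subgroup G, IsSylowIn p P0 M ∧ F ∈ f P0 ∧ IsSylowIn p A M ∧ IsSylowIn p B M ∧
    A ≤ Subgroup.normalizer (F : Set G) ∧ B ≤ Subgroup.normalizer (F : Set G) ∧ D ≤ B ∧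
    ∃ x ∈ M ⊓ Subgroup.normalizer (F : Set G), cj x⁻¹ B = A

lemma sylow_le_of_isSylowIn_inf {K : Type*} [Group K] [Finite K] (c P : Sylow p K) {X : Subgroup K}
    (hP : (P : Subgroup K) ≤ X) (h : IsSylowIn p ((c : Subgroup K) ⊓ X) X) : (c : Subgroup K) ≤ X := by
  have h1 : Nat.card ↥(c : Subgroup K) ≤ Nat.card ↥((c : Subgroup K) ⊓ X : Subgroup K) :=
    ((IsSylowIn.of_le P le_top).card_eq (IsSylowIn.of_le c le_top)).ge.trans (h.card_le P.2 hP)
  exact inf_eq_left.1 (Subgroup.eq_of_le_of_card_ge inf_le_left h1)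

/-- A regular subgroup connects its Sylow subgroups. -/
lemma regular_chain (hf : Cfsg.IsNormalizerFunctor p f) {M : Subgroup G} (hr : Cfsg.IsFunctorRegular p f M)
    {P Q D : Subgroup G} (hP : IsSylowIn p P M) (hQ : IsSylowIn p Q M) (hD : D ≠ ⊥) (hDP : D ≤ P) (hDQ : D ≤ Q) :
    Relation.ReflTransGen (LStep p f M D) P Q := by
  by_cases hPQ : P = Q
  · subst hPQ; exact .refl
  have hne : hP.sylow ≠ hQ.sylow := fun e => hPQ (by
    have := congrArg (fun s : Sylow p ↥M => (s : Subgroup ↥M).map M.subtype) e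
    simpa [IsSylowIn.sylow_coe, Subgroup.map_subgroupOf_eq_of_le, hP.1, hQ.1] using this)
  have hne' : (hP.sylow : Subgroup ↥M) ⊓ (hQ.sylow : Subgroup ↥M) ≠ ⊥ := by
    intro e
    apply hD
    refine eq_bot_iff.2 fun d hd => ?_
    have : (⟨d, hP.1 (hDP hd)⟩ : ↥M) ∈ (⊥ : Subgroup ↥M) := e ▸ ⟨hDP hd, hDQ hd⟩
    exact Subgroup.mem_bot.2 (congrArg Subtype.val (Subgroup.mem_bot.1 this))
  obtain ⟨n, c, X, x, h0, hl, hi⟩ := hr hP.sylow hQ.sylow hne hne'
  set up : Sylow p ↥M → Subgroup G := fun s => (s : Subgroup ↥M).map M.subtype with hup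
  have hstep : ∀ i : Fin n, LStep p f M D (up (c i.castSucc)) (up (c i.succ)) := by
    intro i
    obtain ⟨h1, h2, hx, he, hle⟩ := hi i
    obtain ⟨Y, ⟨P0, F, hF, rfl⟩, hXY⟩ := h1.1
    have hP0F : (P0 : Subgroup ↥M).map M.subtype ≤ Subgroup.normalizer (F : Set G) :=
      Subgroup.le_normalizer.trans ((hf _ (P0.2.map _)).1 F hF).2
    have hP0X : (P0 : Subgroup ↥M) ≤ X i := by
      rw [← hXY]
      intro y hy
      exact ⟨y.2, hP0F ⟨y, hy, rfl⟩⟩
    have hA := sylow_le_of_isSylowIn_inf (c i.castSucc) P0 hP0X (isSylowIn_of_mem_sylowMembers h1)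
    have hB := sylow_le_of_isSylowIn_inf (c i.succ) P0 hP0X (isSylowIn_of_mem_sylowMembers h2)
    rw [← hXY] at hA hB hx
    refine ⟨_, F, IsSylowIn.ofSylow P0, hF, IsSylowIn.ofSylow _, IsSylowIn.ofSylow _, ?_, ?_, ?_, (x i : G), hx, ?_⟩
    · rintro _ ⟨y, hy, rfl⟩; exact (hA hy).2
    · rintro _ ⟨y, hy, rfl⟩; exact (hB hy).2
    · intro d hd
      exact ⟨⟨d, hP.1 (hDP hd)⟩, (hle ⟨hDP hd, hDQ hd⟩).1, rfl⟩
    · show cj (x i : G)⁻¹ ((c i.succ : Subgroup ↥M).map M.subtype) = (c i.castSucc : Subgroup ↥M).map M.subtype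
      rw [← he, Cfsg.subgroupConjRight, cj, Subgroup.map_map, Subgroup.map_map]
      congr 1
  have hall : ∀ i : Fin (n + 1), Relation.ReflTransGen (LStep p f M D) (up (c 0)) (up (c i)) := by
    intro i
    induction i using Fin.induction with
    | zero => exact .refl
    | succ j ih => exact ih.tail (hstep j)
  have := hall (Fin.last n)
  rw [h0, hl] at this
  simpa [hup, IsSylowIn.sylow_coe, Subgroup.map_subgroupOf_eq_of_le, hP.1, hQ.1] using this

lemma exists_sylow_inf_eq {M R : Subgroup G} (hR : IsSylowIn p R M) :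
    ∃ U : Sylow p G, (U : Subgroup G) ⊓ M = R := by
  obtain ⟨U, hU⟩ := hR.2.1.exists_le_sylow
  exact ⟨U, hR.eq_of_le (U.2.to_le inf_le_left) inf_le_right (le_inf hU hR.1)⟩

/-- A local step at a Sylow subgroup of `G` is a global step. -/
lemma LStep.toStep {M D : Subgroup G} {a b : Sylow p G} (hM : ∃ S : Sylow p G, (S : Subgroup G) ≤ M)
    (h : LStep p f M D (a : Subgroup G) (b : Subgroup G)) : Step p (Cfsg.functorFamily p f ⊤) D a b := by
  obtain ⟨P0, F, hP0, hF, -, hb, haF, hbF, hD, x, hx, he⟩ := h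
  obtain ⟨S, hS⟩ := hM
  have hP0S : IsSylowIn p P0 (⊤ : Subgroup G) :=
    (IsSylowIn.of_le S le_top).of_card hP0.2.1 le_top (hP0.card_le S.2 hS)
  refine ⟨Subgroup.normalizer (F : Set G), ⟨hP0S.sylow, F, ?_, by rw [top_inf_eq]⟩, ?_, ?_, x, hx.2, he,
    le_inf hD (hD.trans hbF)⟩
  · rw [hP0S.sylow_coe, Subgroup.map_subgroupOf_eq_of_le le_top]; exact hF
  · rw [inf_eq_left.2 haF]; exact IsSylowIn.of_le a haF
  · rw [inf_eq_left.2 hbF]; exact IsSylowIn.of_le b hbF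

/-- Chains in a regular subgroup containing a Sylow subgroup of `G`. -/
lemma conn_of_regular (hf : Cfsg.IsNormalizerFunctor p f) {M : Subgroup G} (hr : Cfsg.IsFunctorRegular p f M)
    {a b : Sylow p G} {D : Subgroup G} (haM : (a : Subgroup G) ≤ M) (hbM : (b : Subgroup G) ≤ M) (hD : D ≠ ⊥)
    (hDa : D ≤ (a : Subgroup G)) (hDb : D ≤ (b : Subgroup G)) : Conn p (Cfsg.functorFamily p f ⊤) D a b := by
  have h := regular_chain hf hr (IsSylowIn.of_le a haM) (IsSylowIn.of_le b hbM) hD hDa hDb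
  have key : ∀ A : Subgroup G, Relation.ReflTransGen (LStep p f M D) (a : Subgroup G) A →
      ∃ u : Sylow p G, (u : Subgroup G) = A ∧ Conn p (Cfsg.functorFamily p f ⊤) D a u := by
    intro A hA
    induction hA with
    | refl => exact ⟨a, rfl, .refl⟩
    | @tail B C _ hstep ih =>
      obtain ⟨u, rfl, hu⟩ := ih
      obtain ⟨U, hU⟩ := hstep.choose_spec.choose_spec.2.2.2.1.2.1.exists_le_sylow
      have hC : (U : Subgroup G) = C := by
        refine (Subgroup.eq_of_le_of_card_ge hU ?_).symm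
        obtain ⟨P0, F, -, -, -, hC, -⟩ := hstep
        exact ((IsSylowIn.of_le a le_top).card_le U.2 le_top).trans (hC.card_le a.2 haM)
      subst hC
      exact ⟨U, rfl, hu.tail (hstep.toStep ⟨a, haM⟩)⟩
  obtain ⟨u, hu, hconn⟩ := key _ h
  rwa [Sylow.ext hu] at hconn

lemma functorFamily_top_normal (hf : Cfsg.IsNormalizerFunctor p f) {X : Subgroup G}
    (hX : X ∈ Cfsg.functorFamily p f ⊤) (g : G) : cj g X ∈ Cfsg.functorFamily p f ⊤ := by
  obtain ⟨P, F, hF, rfl⟩ := hX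
  have hS : IsSylowIn p (cj g ((P : Subgroup ↥(⊤ : Subgroup G)).map (⊤ : Subgroup G).subtype)) (⊤ : Subgroup G) :=
    (IsSylowIn.ofSylow P).conj (Subgroup.le_normalizer (Subgroup.mem_top g))
  refine ⟨hS.sylow, cj g F, ?_, ?_⟩
  · rw [hS.sylow_coe, Subgroup.map_subgroupOf_eq_of_le le_top]
    show cj g F ∈ f (Subgroup.map _ _)
    rw [(hf _ (P.2.map _)).2 g]
    exact ⟨F, hF, rfl⟩
  · rw [top_inf_eq, top_inf_eq]
    exact Subgroup.map_equiv_normalizer_eq F (MulAut.conj g)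

lemma Conn.smul {𝓕 : Set (Subgroup G)} (h𝓕 : ∀ X ∈ 𝓕, ∀ g : G, cj g X ∈ 𝓕) {D : Subgroup G} {a b : Sylow p G}
    (g : G) (h : Conn p 𝓕 D a b) : Conn p 𝓕 (cj g D) (g • a) (g • b) := by
  refine Relation.ReflTransGen.lift (fun s => g • s) (fun a b hs => ?_) a b h
  obtain ⟨X, hX, ha, hb, x, hx, he, hle⟩ := hs
  have hsyl : ∀ s : Sylow p G, IsSylowIn p ((s : Subgroup G) ⊓ X) X →
      IsSylowIn p (((g • s : Sylow p G) : Subgroup G) ⊓ cj g X) (cj g X) := by
    intro s h1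
    show IsSylowIn p (cj g (s : Subgroup G) ⊓ cj g X) (cj g X)
    rw [show cj g (s : Subgroup G) ⊓ cj g X = cj g ((s : Subgroup G) ⊓ X) from
      (Subgroup.map_inf _ _ _ (MulEquiv.injective _)).symm]
    refine ⟨cj_mono h1.1, isPGroup_cj h1.2.1, fun hd => h1.2.2 ?_⟩
    rwa [Subgroup.relIndex_map_map_of_injective _ _ (MulEquiv.injective _)] at hd
  refine ⟨cj g X, h𝓕 X hX g, hsyl a ha, hsyl b hb, g * x * g⁻¹, ?_, ?_, ?_⟩
  · rw [mem_cj]; simpa [mul_assoc] using hx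
  · show cj _ (cj g (b : Subgroup G)) = cj g (a : Subgroup G)
    rw [← he, cj_cj, cj_cj]; congr 1; simp [mul_assoc]
  · show cj g D ≤ cj g (b : Subgroup G) ⊓ cj g X
    exact le_inf (cj_mono (hle.trans inf_le_left)) (cj_mono (hle.trans inf_le_right))

/-- If `G = G₁G₂` with regular factors containing a Sylow subgroup, the functor family connects. -/
theorem conn_of_product (hf : Cfsg.IsNormalizerFunctor p f) (S₀ : Sylow p G) {G₁ G₂ : Subgroup G}
    (h₁ : (S₀ : Subgroup G) ≤ G₁) (h₂ : (S₀ : Subgroup G) ≤ G₂)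
    (hr₁ : Cfsg.IsFunctorRegular p f G₁) (hr₂ : Cfsg.IsFunctorRegular p f G₂)
    (hU : ∀ g : G, ∃ U : Sylow p G, (S₀ : Subgroup G) ⊓ cj g⁻¹ (S₀ : Subgroup G) ≤ (U : Subgroup G) ∧
      (U : Subgroup G) ≤ G₁ ⊓ cj g⁻¹ G₂) (S T : Sylow p G) (hne : (S : Subgroup G) ⊓ (T : Subgroup G) ≠ ⊥) :
    Conn p (Cfsg.functorFamily p f ⊤) ((S : Subgroup G) ⊓ (T : Subgroup G)) S T := by
  have h𝓕 : ∀ X ∈ Cfsg.functorFamily p f ⊤, ∀ g : G, cj g X ∈ Cfsg.functorFamily p f ⊤ :=
    fun X hX g => functorFamily_top_normal hf hX g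
  -- move `S` to `S₀`
  obtain ⟨a, rfl⟩ := MulAction.exists_smul_eq G S₀ S
  obtain ⟨b, rfl⟩ := MulAction.exists_smul_eq G S₀ T
  set g := b⁻¹ * a with hg
  set D := (S₀ : Subgroup G) ⊓ cj g⁻¹ (S₀ : Subgroup G) with hD
  have hcoe : ∀ (u : G) (s : Sylow p G), ((u • s : Sylow p G) : Subgroup G) = cj u (s : Subgroup G) := fun u s => rfl
  have hDa : cj a D = ((a • S₀ : Sylow p G) : Subgroup G) ⊓ ((b • S₀ : Sylow p G) : Subgroup G) := by
    rw [hcoe, hcoe, hD, cj, Subgroup.map_inf _ _ _ (MulEquiv.injective _)]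
    show cj a _ ⊓ cj a (cj g⁻¹ _) = _
    rw [cj_cj, hg]; simp [mul_assoc]
  have hD1 : D ≠ ⊥ := fun e => hne (by rw [← hDa, e]; exact Subgroup.map_bot _)
  obtain ⟨U, hDU, hUG⟩ := hU g
  have c1 : Conn p (Cfsg.functorFamily p f ⊤) D S₀ U :=
    conn_of_regular hf hr₁ h₁ (hUG.trans inf_le_left) hD1 inf_le_left hDU
  have c2 : Conn p (Cfsg.functorFamily p f ⊤) (cj g D) (g • U) S₀ := by
    refine conn_of_regular hf hr₂ ?_ h₂ ?_ ?_ ?_
    · rw [hcoe]
      refine (cj_mono (hUG.trans inf_le_right)).trans ?_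
      rw [cj_cj, mul_inv_cancel]; exact (cj_one _).le
    · exact fun e => hD1 ((Subgroup.map_eq_bot_iff_of_injective _ (MulAut.conj g).injective).1 e)
    · exact cj_mono hDU
    · refine (cj_mono inf_le_right).trans ?_
      rw [cj_cj, mul_inv_cancel]; exact (cj_one _).le
  have c2' := Conn.smul h𝓕 g⁻¹ c2
  rw [cj_cj, inv_mul_cancel, cj_one, smul_smul, inv_mul_cancel, one_smul] at c2'
  have c := Conn.smul h𝓕 a (c1.trans c2')
  rw [hDa, smul_smul, show a * g⁻¹ = b by rw [hg]; simp] at c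
  exact c

/-- Singular maximal local subgroups together with the functor family connect. -/
theorem conn_of_singular (hf : Cfsg.IsNormalizerFunctor p f)
    (hf1 : ∀ P : Subgroup G, IsPGroup p ↥P → P ≠ ⊥ → ∀ F ∈ f P, F ≠ ⊥) {𝓕 : Set (Subgroup G)}
    (hfam : Cfsg.functorFamily p f ⊤ ⊆ 𝓕)
    (hsing : ∀ M, Cfsg.IsMaximalPLocal p M → ¬ Cfsg.IsFunctorRegular p f M → M ∈ 𝓕) :
    ∀ (D : Subgroup G), D ≠ ⊥ → ∀ S T : Sylow p G, D ≤ (S : Subgroup G) → D ≤ (T : Subgroup G) →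
      Conn p 𝓕 D S T := by
  intro D
  generalize hk : Nat.card G - Nat.card ↥D = k
  induction k using Nat.strong_induction_on generalizing D with
  | _ k ih =>
  intro hD1 S T hDS hDT
  have hcardG : ∀ R : Subgroup G, Nat.card ↥R ≤ Nat.card G := fun R => Subgroup.card_le_card_group R
  have bigger : ∀ (R : Subgroup G) (u v : Sylow p G), D ≤ R → Nat.card ↥D < Nat.card ↥R →
      R ≤ (u : Subgroup G) → R ≤ (v : Subgroup G) → Conn p 𝓕 D u v := by
    intro R u v hDR hlt hu hv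
    refine Conn.mono hDR (ih _ ?_ R rfl (fun e => hD1 (eq_bot_iff.2 (e ▸ hDR))) u v hu hv)
    have := hcardG R
    omega
  -- normalizer growth
  have hgrow : ∀ u : Sylow p G, D ≤ (u : Subgroup G) → D ≠ (u : Subgroup G) →
      Nat.card ↥D < Nat.card ↥((u : Subgroup G) ⊓ Subgroup.normalizer (D : Set G) : Subgroup G) := fun u hu hne =>
    (Set.toFinite _).card_lt_card
      (SetLike.coe_ssubset_coe.2 (Cfsg.Agent.Lib.LocalFusion.lt_inf_normalizer u.2 (lt_of_le_of_ne hu hne)))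
  by_cases hDeq : D = (S : Subgroup G)
  · have hST : S = T := Sylow.ext (S.3 T.2 (hDeq ▸ hDT)).symm
    subst hST; exact .refl
  have hDT' : D ≠ (T : Subgroup G) := fun e => hDeq (by
    have : (S : Subgroup G) = T := T.3 S.2 (e ▸ hDS)
    rw [this, e])
  -- maximal local subgroups
  have exmax : ∀ Q : Subgroup G, IsPGroup p ↥Q → Q ≠ ⊥ →
      ∃ M, Cfsg.IsMaximalPLocal p M ∧ Subgroup.normalizer (Q : Set G) ≤ M := by
    intro Q hQ hQ1
    obtain ⟨M, ⟨hM1, hM2⟩, hM3⟩ := Set.Finite.exists_maximal (Set.toFinite {M : Subgroup G | Cfsg.IsPLocal p M ∧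
      Subgroup.normalizer (Q : Set G) ≤ M}) ⟨_, ⟨Q, hQ, hQ1, rfl⟩, le_rfl⟩
    exact ⟨M, ⟨hM1, fun N hN hMN => le_antisymm (hM3 ⟨hN, hM2.trans hMN⟩ hMN) hMN⟩, hM2⟩
  have local' : ∀ (j : ℕ) (M P : Subgroup G), Nat.card G - Nat.card ↥P = j → Cfsg.IsMaximalPLocal p M →
      IsSylowIn p P M → Nat.card ↥D < Nat.card ↥P → ∀ U V : Sylow p G, IsSylowIn p ((U : Subgroup G) ⊓ M) M →
      IsSylowIn p ((V : Subgroup G) ⊓ M) M → D ≤ (U : Subgroup G) ⊓ M → D ≤ (V : Subgroup G) ⊓ M →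
      Conn p 𝓕 D U V := by
    intro j
    induction j using Nat.strong_induction_on with
    | _ j ihj =>
    intro M P hj hM hP hlt U V hU hV hDU hDV
    have hsz : ∀ R : Subgroup G, IsSylowIn p R M → Nat.card ↥D < Nat.card ↥R := fun R hR =>
      hlt.trans_le (hR.card_eq hP).ge
    by_cases hr : Cfsg.IsFunctorRegular p f M
    · by_cases hfull : ∃ S' : Sylow p G, (S' : Subgroup G) ≤ M
      · obtain ⟨S', hS'⟩ := hfull
        have full : ∀ W : Sylow p G, IsSylowIn p ((W : Subgroup G) ⊓ M) M → (W : Subgroup G) ≤ M := fun W hW =>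
          inf_eq_left.1 (Subgroup.eq_of_le_of_card_ge inf_le_left
            (((IsSylowIn.of_le S' le_top).card_le W.2 le_top).trans (hW.card_le S'.2 hS')))
        refine Relation.ReflTransGen.mono ?_ U V
          (conn_of_regular hf hr (full U hU) (full V hV) hD1 (hDU.trans inf_le_left) (hDV.trans inf_le_left))
        rintro u v ⟨X, hX, h⟩
        exact ⟨X, hfam hX, h⟩
      have h := regular_chain hf hr hU hV hD1 hDU hDV
      have key : ∀ A : Subgroup G, Relation.ReflTransGen (LStep p f M D) ((U : Subgroup G) ⊓ M) A →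
          IsSylowIn p A M ∧ D ≤ A ∧ ∃ W : Sylow p G, A ≤ (W : Subgroup G) ∧ Conn p 𝓕 D U W := by
        intro A hA
        induction hA with
        | refl => exact ⟨hU, hDU, U, inf_le_left, .refl⟩
        | @tail B C _ hstep ih2 =>
          obtain ⟨hB, hDB, W, hBW, hconn⟩ := ih2
          obtain ⟨P0, F, hP0, hF, -, hC, hBF, hCF, hDC, -⟩ := hstep
          have hP01 : P0 ≠ ⊥ := fun e => by
            have := hsz P0 hP0
            rw [e, Subgroup.card_bot] at this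
            exact absurd this (by have := Nat.card_pos (α := ↥D); omega)
          have hF1 := hf1 P0 hP0.2.1 hP01 F hF
          have hFP := ((hf P0 hP0.2.1).1 F hF)
          obtain ⟨M', hM', hNM'⟩ := exmax F (hP0.2.1.to_le hFP.1) hF1
          obtain ⟨S0, hS0⟩ := hP0.2.1.exists_le_sylow
          have hne : P0 ≠ (S0 : Subgroup G) := fun e => hfull ⟨S0, e ▸ hP0.1⟩
          have hgr : Nat.card ↥P0 < Nat.card ↥((S0 : Subgroup G) ⊓ Subgroup.normalizer (P0 : Set G) : Subgroup G) := by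
            have h1 := Cfsg.Agent.Lib.LocalFusion.lt_inf_normalizer S0.2 (lt_of_le_of_ne hS0 hne)
            exact (Set.toFinite _).card_lt_card (SetLike.coe_ssubset_coe.2 h1)
          have hle' : (S0 : Subgroup G) ⊓ Subgroup.normalizer (P0 : Set G) ≤ M' :=
            inf_le_right.trans (hFP.2.trans hNM')
          obtain ⟨P', hP', hP'le⟩ := exists_isSylowIn_ge (S0.2.to_le inf_le_left) hle'
          have hP'card : Nat.card ↥P < Nat.card ↥P' := by
            have h1 := Subgroup.card_le_of_le hP'le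
            have h2 := hP0.card_eq hP
            omega
          obtain ⟨RB, hRB, hBR⟩ := exists_isSylowIn_ge hB.2.1 (hBF.trans hNM')
          obtain ⟨RC, hRC, hCR⟩ := exists_isSylowIn_ge hC.2.1 (hCF.trans hNM')
          obtain ⟨WB, hWB⟩ := exists_sylow_inf_eq hRB
          obtain ⟨WC, hWC⟩ := exists_sylow_inf_eq hRC
          have c1 : Conn p 𝓕 D W WB := bigger B W WB hDB (hsz B hB) hBW (hBR.trans (hWB.ge.trans inf_le_left))
          have c2 : Conn p 𝓕 D WB WC := by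
            refine ihj _ ?_ M' P' rfl hM' hP' (hlt.trans hP'card) WB WC ?_ ?_ ?_ ?_
            · have := hcardG P'
              omega
            · rw [hWB]; exact hRB
            · rw [hWC]; exact hRC
            · rw [hWB]; exact hDB.trans hBR
            · rw [hWC]; exact hDC.trans hCR
          exact ⟨hC, hDC, WC, hCR.trans (hWC.ge.trans inf_le_left), (hconn.trans c1).trans c2⟩
      obtain ⟨hA, hDA, W, hAW, hconn⟩ := key _ h
      exact hconn.trans (bigger _ W V hDA (hsz _ hA) hAW inf_le_left)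
    · obtain ⟨x, hx, he⟩ := hU.conj_eq hV
      -- `he : cj x (V ⊓ M) = U ⊓ M`
      set V' : Sylow p G := x⁻¹ • U with hV'
      have hle : (V : Subgroup G) ⊓ M ≤ (V' : Subgroup G) := by
        show _ ≤ cj x⁻¹ (U : Subgroup G)
        have := cj_mono (g := x⁻¹) (he.le.trans inf_le_left)
        rwa [cj_cj, inv_mul_cancel, cj_one] at this
      have hV'M : IsSylowIn p ((V' : Subgroup G) ⊓ M) M := by
        rw [hV.eq_of_le (V'.2.to_le inf_le_left) inf_le_right (le_inf hle inf_le_right)]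
        exact hV
      have st : Step p 𝓕 D U V' := by
        refine ⟨M, hsing M hM hr, hU, hV'M, x⁻¹, M.inv_mem hx, ?_, le_inf (hDV.trans hle) (hDV.trans inf_le_right)⟩
        show cj x⁻¹⁻¹ (cj x⁻¹ (U : Subgroup G)) = _
        rw [cj_cj, inv_inv, mul_inv_cancel, cj_one]
      exact (Relation.ReflTransGen.single st).trans (bigger _ V' V hDV (hsz _ hV) hle inf_le_left)
  obtain ⟨M, hM, hNM⟩ := exmax D (S.2.to_le hDS) hD1
  have hside : ∀ u : Sylow p G, D ≤ (u : Subgroup G) → D ≠ (u : Subgroup G) →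
      ∃ W : Sylow p G, IsSylowIn p ((W : Subgroup G) ⊓ M) M ∧ D ≤ (W : Subgroup G) ⊓ M ∧ Conn p 𝓕 D u W ∧
        Conn p 𝓕 D W u ∧ Nat.card ↥D < Nat.card ↥((W : Subgroup G) ⊓ M : Subgroup G) := by
    intro u hu hne
    set R := (u : Subgroup G) ⊓ Subgroup.normalizer (D : Set G) with hR
    have hDR : D ≤ R := le_inf hu Subgroup.le_normalizer
    obtain ⟨P1, hP1, hRP⟩ := exists_isSylowIn_ge (u.2.to_le inf_le_left : IsPGroup p ↥R) (inf_le_right.trans hNM)
    obtain ⟨W, hW⟩ := exists_sylow_inf_eq hP1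
    have hRW : R ≤ (W : Subgroup G) := hRP.trans (hW.ge.trans inf_le_left)
    refine ⟨W, hW ▸ hP1, hW ▸ hDR.trans hRP, bigger R u W hDR (hgrow u hu hne) inf_le_left hRW,
      bigger R W u hDR (hgrow u hu hne) hRW inf_le_left, ?_⟩
    rw [hW]
    exact (hgrow u hu hne).trans_le (Subgroup.card_le_of_le hRP)
  obtain ⟨U, hU, hDU, cSU, -, hbig⟩ := hside S hDS hDeq
  obtain ⟨V, hV, hDV, -, cVT, -⟩ := hside T hDT hDT'
  exact (cSU.trans (local' _ M _ rfl hM hU hbig U V hU hV hDU hDV)).trans cVT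

lemma IsSylowIn.subgroupOf_top {P X : Subgroup G} (h : IsSylowIn p P X) :
    IsSylowIn p (P.subgroupOf ⊤) (X.subgroupOf (⊤ : Subgroup G)) := by
  refine ⟨fun y hy => h.1 hy, isPGroup_subgroupOf h.2.1, ?_⟩
  rw [Subgroup.relIndex_subgroupOf le_top]
  exact h.2.2

/-- Chains in `G` give regularity of the whole group. -/
theorem regular_top_of_conn
    (h : ∀ S T : Sylow p G, (S : Subgroup G) ⊓ (T : Subgroup G) ≠ ⊥ →
      Conn p (Cfsg.functorFamily p f ⊤) ((S : Subgroup G) ⊓ (T : Subgroup G)) S T) :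
    Cfsg.IsFunctorRegular p f (⊤ : Subgroup G) := by
  refine controls_of_conn fun A B hne hne' => ?_
  have hA : IsSylowIn p ((A : Subgroup ↥(⊤ : Subgroup G)).map (⊤ : Subgroup G).subtype) ⊤ := IsSylowIn.ofSylow A
  have hB : IsSylowIn p ((B : Subgroup ↥(⊤ : Subgroup G)).map (⊤ : Subgroup G).subtype) ⊤ := IsSylowIn.ofSylow B
  obtain ⟨A', hA'⟩ := exists_sylow_inf_eq hA
  obtain ⟨B', hB'⟩ := exists_sylow_inf_eq hB
  rw [inf_top_eq] at hA' hB'
  let φ : Sylow p G → Sylow p ↥(⊤ : Subgroup G) := fun s => (IsSylowIn.of_le s (L := ⊤) le_top).sylow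
  have hφ : ∀ (s : Sylow p G) (t : Sylow p ↥(⊤ : Subgroup G)),
      (s : Subgroup G) = (t : Subgroup ↥(⊤ : Subgroup G)).map (⊤ : Subgroup G).subtype → φ s = t := by
    intro s t hst
    refine Sylow.ext ?_
    show (s : Subgroup G).subgroupOf ⊤ = _
    rw [hst, Subgroup.subgroupOf, Subgroup.comap_map_eq_self_of_injective Subtype.val_injective]
  have hle : (A : Subgroup ↥(⊤ : Subgroup G)) ⊓ (B : Subgroup ↥(⊤ : Subgroup G)) =
      ((A' : Subgroup G) ⊓ (B' : Subgroup G)).subgroupOf ⊤ := by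
    rw [← hφ A' A hA', ← hφ B' B hB']
    rfl
  have hne1 : (A' : Subgroup G) ⊓ (B' : Subgroup G) ≠ ⊥ := fun e => hne' (by
    rw [hle, e, Subgroup.bot_subgroupOf])
  rw [← hφ A' A hA', ← hφ B' B hB']
  refine Relation.ReflTransGen.lift φ (fun a b hs => ?_) _ _ (h A' B' hne1)
  obtain ⟨X, hX, ha, hb, x, hx, he, hD⟩ := hs
  refine ⟨X.subgroupOf ⊤, ⟨X, hX, rfl⟩, IsSylowIn.subgroupOf_top ha, IsSylowIn.subgroupOf_top hb,
    ⟨x, Subgroup.mem_top x⟩, hx, ?_, fun y hy => hD hy⟩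
  show cj _ ((b : Subgroup G).subgroupOf ⊤) = (a : Subgroup G).subgroupOf ⊤
  ext y
  rw [mem_cj, Subgroup.mem_subgroupOf, Subgroup.mem_subgroupOf, ← he, mem_cj]
  rfl

end Cfsg.Agent.Lib.SylowChainControl
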